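import Cfsg.Agent.Lib.ClassSizes3.Sizes

/-!
Central shifts `g u g⁻¹ u⁻¹ ∈ Z(G)`, a shift element in a normalised `p`-subgroup, and the action on a
subgroup of prime order modulo the centre.
-/

set_option autoImplicit false

namespace CfsgLib.ClassSizes3

open Subgroup

variable {G : Type*} [Group G]

/-- The commutator `[g, u] = g u g⁻¹ u⁻¹`. -/
def shift (g u : G) : G := g * u * g⁻¹ * u⁻¹

theorem shift_spec (g u : G) : g * u * g⁻¹ = shift g u * u := by rw [shift, inv_mul_cancel_right]

theorem shift_eq_of {g u c : G} (h : g * u * g⁻¹ = c * u) : shift g u = c := by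
  rw [shift, h, mul_inv_cancel_right]

theorem shift_eq_one {g u : G} : shift g u = 1 ↔ g ∈ C u := by
  rw [shift, mul_inv_eq_one, mul_inv_eq_iff_eq_mul, mem_C]

theorem shift_mul {g h u : G} (hh : shift h u ∈ center G) :
    shift (g * h) u = shift g u * shift h u := by
  refine shift_eq_of ?_
  calc g * h * u * (g * h)⁻¹ = g * (h * u * h⁻¹) * g⁻¹ := by group
    _ = (g * shift h u) * u * g⁻¹ := by rw [shift_spec h u]; group
    _ = shift h u * (g * u * g⁻¹) := by rw [mem_center_iff.mp hh g]; group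
    _ = shift h u * (shift g u * u) := by rw [shift_spec g u]
    _ = (shift h u * shift g u) * u := by group
    _ = shift g u * shift h u * u := by rw [← mem_center_iff.mp hh (shift g u)]

theorem shift_one (u : G) : shift 1 u = 1 := by simp [shift]

theorem shift_pow {g u : G} (h : shift g u ∈ center G) (k : ℕ) : shift (g ^ k) u = shift g u ^ k := by
  induction k with
  | zero => rw [pow_zero, pow_zero, shift_one]
  | succ k ih => rw [pow_succ, shift_mul h, ih, pow_succ]

theorem shift_pow_right {g u : G} (h : shift g u ∈ center G) (k : ℕ) :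
    shift g (u ^ k) = shift g u ^ k := by
  refine shift_eq_of ?_
  rw [← conj_pow, shift_spec]
  exact (show Commute (shift g u) u from (mem_center_iff.mp h u).symm).mul_pow k

theorem shift_mem_of_pow {g u : G} {k : ℕ} (h : shift g u ∈ center G) (hu : u ^ k ∈ center G) :
    shift g u ^ k = 1 := by
  rw [← shift_pow_right h, shift_eq_one, mem_C]
  exact mem_center_iff.mp hu g

theorem shift_mul_mem {g a b : G} (ha : shift g a ∈ center G) (hb : shift g b ∈ center G) :
    shift g (a * b) ∈ center G := by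
  have : shift g (a * b) = shift g a * shift g b := by
    refine shift_eq_of ?_
    calc g * (a * b) * g⁻¹ = (g * a * g⁻¹) * (g * b * g⁻¹) := by group
      _ = shift g a * a * (shift g b * b) := by rw [shift_spec, shift_spec]
      _ = shift g a * (a * shift g b) * b := by group
      _ = shift g a * shift g b * (a * b) := by rw [mem_center_iff.mp hb a]; group
  rw [this]
  exact mul_mem ha hb

theorem C_conj_of_shift {g u : G} (h : shift g u ∈ center G) : C (g * u * g⁻¹) = C u := by
  rw [shift_spec, ← mem_center_iff.mp h u, C_mul_eq_of_central h]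

variable [Finite G]

/-- A `p`-group `T` normalising a noncentral subgroup `B ≤ T` shifts some noncentral element of `B`
centrally. -/
theorem exists_shift {p : ℕ} [hp : Fact p.Prime] {T B : Subgroup G} (hT : IsPGroup p T) (hB : B ≤ T)
    (hn : T ≤ normalizer (B : Set G)) (hBc : ¬ B ≤ center G) :
    ∃ u ∈ B, u ∉ center G ∧ u ^ p ∈ center G ∧ ∀ g ∈ T, shift g u ∈ center G := by
  let π := QuotientGroup.mk' (center G)
  set B' := B.map π with hB'
  have hnB : ∀ g ∈ T, π g ∈ normalizer (B' : Set (G ⧸ center G)) := fun g hg =>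
    B.le_normalizer_map π (mem_map_of_mem π (hn hg))
  let act : T →* MulAut B' := B'.normalizerMonoidHom.comp
    { toFun := fun g => ⟨π g, hnB g g.2⟩
      map_one' := Subtype.ext π.map_one
      map_mul' := fun a b => Subtype.ext (π.map_mul a b) }
  let _ : MulAction T B' := MulAction.compHom B' act
  have hsmul : ∀ (g : T) (b : B'), ((g • b : B') : G ⧸ center G) = π g * b * (π g)⁻¹ := fun _ _ => rfl
  have hB'p : IsPGroup p B' := (hT.to_le hB).map π
  have hB'ne : B' ≠ ⊥ := fun h => hBc (by
    rwa [hB', Subgroup.map_eq_bot_iff, QuotientGroup.ker_mk'] at h)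
  obtain ⟨k, hk⟩ := IsPGroup.iff_card.mp hB'p
  have hk0 : k ≠ 0 := fun h => hB'ne (eq_bot_of_card_eq B' (by rw [hk, h, pow_zero]))
  obtain ⟨b, hb, hb1⟩ := hT.exists_fixed_point_of_prime_dvd_card_of_fixed_point B'
    (hk ▸ dvd_pow_self p hk0) (a := 1) (fun g => Subtype.ext (by rw [hsmul]; simp))
  obtain ⟨j, hj⟩ := hB'p b
  obtain ⟨i, -, hord⟩ := (Nat.dvd_prime_pow hp.out).mp (orderOf_dvd_of_pow_eq_one hj)
  have hi : i ≠ 0 := fun h => hb1 (by
    rw [h, pow_zero, orderOf_eq_one_iff] at hord
    exact hord.symm)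
  obtain ⟨u₀, hu₀, hu₀b⟩ := mem_map.mp b.2
  refine ⟨u₀ ^ p ^ (i - 1), pow_mem hu₀ _, ?_, ?_, fun g hg => ?_⟩
  · intro h
    have : b ^ p ^ (i - 1) = 1 := Subtype.ext (by
      rw [SubgroupClass.coe_pow, ← hu₀b, ← map_pow, OneMemClass.coe_one]
      exact (QuotientGroup.eq_one_iff _).mpr h)
    have h2 := orderOf_dvd_of_pow_eq_one this
    rw [hord, Nat.pow_dvd_pow_iff_le_right hp.out.one_lt] at h2
    omega
  · rw [← pow_mul, ← pow_succ, show i - 1 + 1 = i by omega, ← hord]
    refine (QuotientGroup.eq_one_iff _).mp ?_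
    show π (u₀ ^ orderOf b) = 1
    rw [map_pow, hu₀b, ← SubgroupClass.coe_pow, pow_orderOf_eq_one, OneMemClass.coe_one]
  · have hfix := congrArg (fun x : B' => (x : G ⧸ center G)) (hb ⟨g, hg⟩)
    rw [hsmul, ← hu₀b] at hfix
    have h0 : shift g u₀ ∈ center G := (QuotientGroup.eq_one_iff _).mp (show π (shift g u₀) = 1 by
      rw [shift, map_mul, map_mul, map_mul, map_inv, map_inv]
      exact mul_inv_eq_one.mpr hfix)
    rw [shift_pow_right h0]
    exact pow_mem h0 _

/-- The action modulo the centre on a subgroup of prime order: a homomorphism to a cyclic group of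
order `r - 1`. -/
theorem exists_aut_hom {r : ℕ} (hr : r.Prime) {Q B : Subgroup G} (hn : Q ≤ normalizer (B : Set G))
    (hrel : (center G).relIndex B = r) {w : G} (hw : w ∈ B) (hwc : w ∉ center G) :
    ∃ K : Subgroup Q, K.Normal ∧ (∀ q : Q, q ∈ K ↔ shift (q : G) w ∈ center G) ∧
      K.index ∣ r - 1 ∧ ∃ q₀ : Q, ∀ q : Q, ∃ i : ℤ, q⁻¹ * q₀ ^ i ∈ K := by
  let π := QuotientGroup.mk' (center G)
  set W := B.map π with hW
  have hcard : Nat.card W = r := by
    rw [hW, ← Subgroup.relIndex_ker, QuotientGroup.ker_mk', hrel]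
  have : Fact r.Prime := ⟨hr⟩
  have hcyc : IsCyclic W := isCyclic_of_prime_card hcard
  have hnW : ∀ g ∈ Q, π g ∈ normalizer (W : Set (G ⧸ center G)) := fun g hg =>
    B.le_normalizer_map π (mem_map_of_mem π (hn hg))
  let χ : Q →* MulAut W := W.normalizerMonoidHom.comp
    { toFun := fun g => ⟨π g, hnW g g.2⟩
      map_one' := Subtype.ext π.map_one
      map_mul' := fun a b => Subtype.ext (π.map_mul a b) }
  have hval : ∀ (g : Q) (b : W), ((χ g b : W) : G ⧸ center G) = π g * b * (π g)⁻¹ := fun _ _ => rfl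
  let wb : W := ⟨π w, mem_map_of_mem π hw⟩
  have hwb : wb ≠ 1 := fun h => hwc ((QuotientGroup.eq_one_iff w).mp (congrArg Subtype.val h))
  have hgen : zpowers wb = ⊤ := zpowers_eq_top_of_prime_card hcard hwb
  have : Nat.card (MulAut W) = r - 1 := by
    rw [IsCyclic.card_mulAut, hcard, Nat.totient_prime hr]
  have hMcyc : IsCyclic (MulAut W) := by
    have h1 : IsCyclic (ZMod (Nat.card W))ˣ := by rw [hcard]; infer_instance
    exact isCyclic_of_surjective (IsCyclic.mulAutMulEquiv W).symm (IsCyclic.mulAutMulEquiv W).symm.surjective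
  refine ⟨χ.ker, inferInstance, fun q => ?_, ?_, ?_⟩
  · rw [MonoidHom.mem_ker]
    constructor
    · intro h
      refine (QuotientGroup.eq_one_iff _).mp (show π (shift (q : G) w) = 1 from ?_)
      rw [shift, map_mul, map_mul, map_mul, map_inv, map_inv, mul_inv_eq_one]
      exact (hval q wb).symm.trans (congrArg Subtype.val (DFunLike.congr_fun h wb))
    · intro h
      have h1 : χ q wb = wb := Subtype.ext (by
        rw [hval]
        show π q * π w * (π q)⁻¹ = π w
        rw [← mul_inv_eq_one, ← map_inv, ← map_inv, ← map_mul, ← map_mul, ← map_mul]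
        exact (QuotientGroup.eq_one_iff _).mpr h)
      ext b
      obtain ⟨i, rfl⟩ := mem_zpowers_iff.mp (hgen ▸ mem_top b)
      rw [map_zpow, h1, MulAut.one_apply]
  · rw [index_ker, ← this]
    exact card_subgroup_dvd_card _
  · obtain ⟨g₀, hg₀⟩ := IsCyclic.exists_generator (α := χ.range)
    obtain ⟨q₀, hq₀⟩ := g₀.2
    refine ⟨q₀, fun q => ?_⟩
    obtain ⟨i, hi⟩ := mem_zpowers_iff.mp (hg₀ ⟨χ q, q, rfl⟩)
    refine ⟨i, ?_⟩
    have h2 := congrArg Subtype.val hi
    rw [MonoidHom.mem_ker, map_mul, map_inv, map_zpow, hq₀]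
    simp only [SubgroupClass.coe_zpow] at h2
    rw [h2, inv_mul_cancel]

end CfsgLib.ClassSizes3
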