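import Cfsg.Agent.Lib.ClassSizes3.TwoIndexPrimes

/-!
The centralizers partition `N` modulo the centre; counting modulo `r` gives the contradiction.
-/

set_option autoImplicit false

namespace CfsgLib.ClassSizes3

open Subgroup

variable {G : Type*} [Group G] [Finite G] {N : Subgroup G} {r : ℕ} [hr : Fact r.Prime]

theorem SylowIn.of_le {p : ℕ} [Fact p.Prime] {H K D : Subgroup G} (h : SylowIn p K D) (hDH : D ≤ H)
    (hHK : H ≤ K) : SylowIn p H D := by
  refine ⟨hDH, h.isPGroup, le_antisymm (card_le_of_isPGroup h.isPGroup hDH) ?_⟩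
  obtain ⟨E, hE⟩ := exists_sylowIn (p := p) H
  rw [← hE.card, h.card]
  exact card_le_of_isPGroup hE.isPGroup (hE.le.trans hHK)

theorem Setting.fact_N_central (hs : Setting N r) {q : ℕ} [Fact q.Prime]
    (hq : ¬ ∃ v : G, PEl q v ∧ v ∈ N ∧ v ∉ center G) (x : G) :
    (Nat.card (CN N x)).factorization q = (Nat.card N).factorization q := by
  obtain ⟨P, hP⟩ := exists_sylowIn (p := q) N
  have hPx : P ≤ CN N x := fun v hv => ⟨center_le_C x (by
    by_contra h
    exact hq ⟨v, PEl.of_mem hP.isPGroup hv, hP.le hv, h⟩), hP.le hv⟩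
  have h1 := (hP.of_le hPx inf_le_right).card
  rw [hP.card] at h1
  exact (Nat.pow_right_injective (Fact.out : q.Prime).two_le h1).symm

theorem Setting.exists_gd_rep (hs : Setting N r) {x : G} (hx : x ∈ N) (hxc : x ∉ center G) :
    ∃ w, Gd N r w ∧ C x = C w ∧ w ∈ CN N x := by
  obtain ⟨y, hyN, hyc, p, hp, hpr, hyp⟩ := hs.exgd
  haveI := Fact.mk hp
  obtain ⟨w, hw, -, -, hwg, hC⟩ := hs.exists_p hpr hyp hyN hyc hx hxc
  exact ⟨w, hwg, hC, hw⟩

/-- No centralizer in `N` contains a whole Sylow `p`-subgroup of `N`. -/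
theorem Setting.p_part (hs : Setting N r) {p : ℕ} [hp : Fact p.Prime] (hpr : p ≠ r) {v : G}
    (hv : PEl p v) (hvN : v ∈ N) (hvc : v ∉ center G) {x : G} (hx : x ∈ N) (hxc : x ∉ center G) :
    (Nat.card (CN N x)).factorization p + 1 = (Nat.card N).factorization p := by
  obtain ⟨P, hP⟩ := exists_sylowIn (p := p) N
  obtain ⟨S, hS, hSx, hcard⟩ := hs.p_bound hpr hv hvN hvc hP hx hxc
  have h1 : (Nat.card N).factorization p ≤ (Nat.card (CN N x)).factorization p + 1 := by
    have := hcard.trans (Nat.mul_le_mul_left p (card_le_of_isPGroup hS hSx))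
    rw [hP.card, ← pow_succ'] at this
    exact (Nat.pow_le_pow_iff_right hp.out.one_lt).mp this
  have h2 : (Nat.card (CN N x)).factorization p ≤ (Nat.card N).factorization p :=
    (Nat.factorization_le_iff_dvd Nat.card_pos.ne' Nat.card_pos.ne').mpr (card_dvd_of_le inf_le_right) p
  by_contra hne
  have heq : (Nat.card (CN N x)).factorization p = (Nat.card N).factorization p := by omega
  obtain ⟨D, hD⟩ := exists_sylowIn (p := p) (CN N x)
  have hDN : SylowIn p N D := ⟨hD.le.trans inf_le_right, hD.isPGroup, by rw [hD.card, heq]⟩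
  obtain ⟨u, hu, -, huc⟩ := hDN.exists_noncentral hv hvN hvc
  obtain ⟨y, hy, hxy, -⟩ := hs.exists_gd_rep hx hxc
  refine hs.not_all hDN hu huc fun z hz hzc => ?_
  obtain ⟨w, hw, hwp, hwc, hwg, hzw⟩ := hs.exists_p hpr hv hvN hvc hz hzc
  obtain ⟨c, hc, hcw⟩ := hDN.conj_mem hwp hw.2
  have hA : CN N x = CN N y := by show C x ⊓ N = C y ⊓ N; rw [hxy]
  have hC : C (c * w * c⁻¹) = C y :=
    hs.gd_eq hy (hA ▸ hD.le hcw) (fun h => hwc (mem_center_conj.mp h))
  refine ⟨D.map (MulAut.conj c⁻¹).toMonoidHom, ?_, ?_⟩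
  · have := hDN.map_conj c⁻¹
    rwa [hs.map_conj_N] at this
  · rintro _ ⟨d, hd, rfl⟩
    have h3 : d ∈ C (c * w * c⁻¹) := by rw [hC, ← hxy]; exact (hD.le hd).1
    rw [hzw]
    simpa [mul_assoc] using mem_C_conj.mp h3

theorem Setting.card_CN (hs : Setting N r) {x y : G} (hx : x ∈ N) (hxc : x ∉ center G) (hy : y ∈ N)
    (hyc : y ∉ center G) : Nat.card (CN N x) = Nat.card (CN N y) := by
  refine Nat.eq_of_factorization_eq Nat.card_pos.ne' Nat.card_pos.ne' fun q => ?_
  by_cases hq : q.Prime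
  · haveI := Fact.mk hq
    by_cases hqr : q = r
    · subst hqr
      have key : ∀ z ∈ N, z ∉ center G →
          (Nat.card (CN N z)).factorization q = (Nat.card (C z)).factorization q := by
        intro z hz hzc
        obtain ⟨E, hE⟩ := exists_sylowIn (p := q) (C z)
        have h1 := (hE.of_le (le_inf hE.le fun e he => hs.rmem e (PEl.of_mem hE.isPGroup he))
          (inf_le_left : CN N z ≤ C z)).card
        rw [hE.card] at h1
        exact (Nat.pow_right_injective hq.two_le h1).symm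
      rw [key x hx hxc, key y hy hyc, hs.fact_eq hx hxc hy hyc]
    · by_cases hex : ∃ v : G, PEl q v ∧ v ∈ N ∧ v ∉ center G
      · obtain ⟨v, hv, hvN, hvc⟩ := hex
        have h1 := hs.p_part hqr hv hvN hvc hx hxc
        have h2 := hs.p_part hqr hv hvN hvc hy hyc
        omega
      · rw [hs.fact_N_central hex x, hs.fact_N_central hex y]
  · rw [Nat.factorization_eq_zero_of_not_prime _ hq, Nat.factorization_eq_zero_of_not_prime _ hq]

/-- The normalizer of a centralizer in `N` contains a Sylow `q`-subgroup of `N` for `q ≠ r`. -/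
theorem Setting.norm_sylow (hs : Setting N r) {y : G} (hy : Gd N r y) {q : ℕ} [hq : Fact q.Prime]
    (hqr : q ≠ r) : ∃ P, SylowIn q N P ∧ P ≤ normalizer (CN N y : Set G) := by
  by_cases hex : ∃ v : G, PEl q v ∧ v ∈ N ∧ v ∉ center G
  · obtain ⟨v, hv, hvN, hvc⟩ := hex
    have hpp := hs.p_part hqr hv hvN hvc hy.1 hy.2.1
    obtain ⟨w, hw, hwq, hwc, -, -⟩ := hs.exists_p hqr hv hvN hvc hy.1 hy.2.1
    obtain ⟨D, hD, hwD⟩ := exists_sylowIn_ge (p := q) hwq.isPGroup (zpowers_le.mpr hw)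
    obtain ⟨P, hP, hDP⟩ := exists_sylowIn_ge (p := q) hD.isPGroup (hD.le.trans inf_le_right)
    refine ⟨P, hP, ?_⟩
    have hne : D ≠ P := fun h => by
      have h1 := hP.card
      rw [← h, hD.card] at h1
      have := Nat.pow_right_injective hq.out.two_le h1
      omega
    obtain ⟨h, hhP, hhD, hhn⟩ := exists_normalizing hP.isPGroup hDP hne
    set T := P ⊓ normalizer (D : Set G)
    have hDT : D ≤ T := le_inf hDP le_normalizer
    have hhT : h ∈ T := ⟨hhP, mem_normalizer_fintype hhn⟩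
    have hlt : Nat.card D < Nat.card T := lt_of_le_of_ne (card_le_of_le hDT) fun he =>
      hhD ((eq_of_le_of_card_ge hDT he.ge).symm ▸ hhT)
    obtain ⟨i, hi⟩ := IsPGroup.iff_card.mp (hP.isPGroup.to_le (inf_le_left : T ≤ P))
    rw [hi, hD.card, Nat.pow_lt_pow_iff_right hq.out.one_lt] at hlt
    have hcT : Nat.card P ≤ Nat.card T := by
      rw [hi, hP.card]
      exact Nat.pow_le_pow_right hq.out.pos (by omega)
    have hTP : T = P := eq_of_le_of_card_ge inf_le_left hcT
    exact fun g hg => hs.mem_norm hy hw hwc (hD.le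
      ((mem_normalizer_iff.mp ((hTP ▸ hg : g ∈ T)).2 w).mp (hwD (mem_zpowers w))))
  · obtain ⟨P, hP⟩ := exists_sylowIn (p := q) N
    refine ⟨P, hP, fun g hg => centralizer_le_normalizer _ (center_le_centralizer _ ?_)⟩
    by_contra h
    exact hex ⟨g, PEl.of_mem hP.isPGroup hg, hP.le hg, h⟩

theorem Setting.normal_of_R (hs : Setting N r) {y : G} (hy : Gd N r y) {R : Subgroup G}
    (hR : SylowIn r ⊤ R) (hRA : R ≤ normalizer (CN N y : Set G)) :
    N ≤ normalizer (CN N y : Set G) := by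
  refine le_normalizer_of_sylow fun q hq => ?_
  haveI := Fact.mk hq
  by_cases hqr : q = r
  · subst hqr
    exact ⟨R, hs.sylowIn_N hR, hRA⟩
  · exact hs.norm_sylow hy hqr

/-- If one centralizer is normal in `N` then all are. -/
theorem Setting.all_normal (hs : Setting N r) {y z : G} (hy : Gd N r y) (hz : Gd N r z)
    (hny : N ≤ normalizer (CN N y : Set G)) : N ≤ normalizer (CN N z : Set G) := by
  obtain ⟨E, hE⟩ := exists_sylowIn (p := r) (CN N z)
  obtain ⟨R, hR, hER⟩ := exists_sylowIn_ge (H := (⊤ : Subgroup G)) hE.isPGroup le_top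
  obtain ⟨D, hD⟩ := exists_sylowIn (p := r) (CN N y)
  obtain ⟨R₀, hR₀, hDR₀⟩ := exists_sylowIn_ge (H := (⊤ : Subgroup G)) hD.isPGroup le_top
  have hRN : ∀ S : Subgroup G, SylowIn r ⊤ S → S ≤ normalizer (D : Set G) := fun S hS g hg =>
    hs.norm_syl hy hD (hny (hs.rmem g (PEl.of_mem hS.isPGroup hg)))
  obtain ⟨hrel₀, -, -⟩ := hs.t_step hy hD hR₀ hDR₀
  rw [inf_eq_left.mpr (hRN R₀ hR₀)] at hrel₀
  obtain ⟨hrel, hTA, -⟩ := hs.t_step hz hE hR hER
  set T := R ⊓ normalizer (E : Set G)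
  have hET : E ≤ T := le_inf hER le_normalizer
  have hcard : Nat.card R ≤ Nat.card T := by
    have h1 := card_mul_relIndex' hDR₀
    have h2 := card_mul_relIndex' hET
    rw [hrel₀] at h1
    rw [hrel, ← hs.card_D_eq hy hz hD hE, h1] at h2
    rw [← h2, hR.card, hR₀.card]
  have hTR : T = R := eq_of_le_of_card_ge inf_le_left hcard
  exact hs.normal_of_R hz hR (hTR ▸ hTA)

theorem Setting.not_normal (hs : Setting N r) {y : G} (hy : Gd N r y) :
    ¬ N ≤ normalizer (CN N y : Set G) := by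
  intro hny
  obtain ⟨x, hx, hxy⟩ := SetLike.not_le_iff_exists.mp (hs.not_le_C hy.1 hy.2.1)
  have hxc : x ∉ center G := fun h => hxy (center_le_C y h)
  obtain ⟨v, hvg, hxv, hvx⟩ := hs.exists_gd_rep hx hxc
  have hnv := hs.all_normal hy hvg hny
  obtain ⟨hvN, hvc, p, hp, hpr, hvp⟩ := id hvg
  obtain ⟨w, hw, hwr, hwc⟩ := hs.exists_r hy.1 hy.2.1
  have hwA : w ∈ CN N y := ⟨hw, hs.rmem w hwr⟩
  have hvA : v ∉ CN N y := fun h => hxy ((hs.gd_eq hy h hvc) ▸ C_comm hvx.1)
  have hsh : shift v w ∈ CN N y ⊓ CN N v := by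
    refine ⟨(CN N y).mul_mem ((mem_normalizer_iff.mp (hny hvN) w).mp hwA) ((CN N y).inv_mem hwA), ?_⟩
    rw [shift, show v * w * v⁻¹ * w⁻¹ = v * (w * v⁻¹ * w⁻¹) by group]
    exact (CN N v).mul_mem ⟨self_mem_C v, hvN⟩
      ((mem_normalizer_iff.mp (hnv hwA.2) _).mp ((CN N v).inv_mem ⟨self_mem_C v, hvN⟩))
  have hshc : shift v w ∈ center G := by
    by_contra h
    exact hvA ⟨(hs.gd_eq hy hsh.1 h) ▸ (hs.gd_eq hvg hsh.2 h).symm ▸ self_mem_C v, hvN⟩
  refine hvA ⟨?_, hvN⟩
  rw [← hs.gd_eq hy hwA hwc]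
  exact commute_of_central_shift hp hr.out hpr hvp hwr hshc
    (by rw [shift_spec, mem_center_iff.mp hshc w])

theorem Setting.false (hs : Setting N r) : False := by
  classical
  have := Fintype.ofFinite G
  obtain ⟨R, hR⟩ := exists_sylowIn (p := r) (⊤ : Subgroup G)
  set F : Finset G := Finset.univ.filter fun x => x ∈ N ∧ x ∉ center G with hF
  have hmemF : ∀ x, x ∈ F ↔ x ∈ N ∧ x ∉ center G := fun x => by simp [hF]
  set 𝒜 : Finset (Subgroup G) := F.image (fun x => CN N x) with h𝒜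
  have hmem𝒜 : ∀ H, H ∈ 𝒜 ↔ ∃ x, (x ∈ N ∧ x ∉ center G) ∧ CN N x = H := fun H => by
    simp [h𝒜, hF]
  -- `r` divides the number of centralizers
  have hclosed : ∀ (g : R) (H : 𝒜), (H : Subgroup G).map (MulAut.conj (g : G)).toMonoidHom ∈ 𝒜 := by
    rintro g ⟨H, hH⟩
    obtain ⟨x, ⟨hx, hxc⟩, rfl⟩ := (hmem𝒜 H).mp hH
    exact (hmem𝒜 _).mpr ⟨g * x * (g : G)⁻¹,
      ⟨hs.normal.conj_mem x hx g, fun h => hxc (mem_center_conj.mp h)⟩, hs.CN_conj x g⟩
  let _ : MulAction R 𝒜 :=
    { smul := fun g H => ⟨(H : Subgroup G).map (MulAut.conj (g : G)).toMonoidHom, hclosed g H⟩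
      one_smul := fun H => Subtype.ext (by
        show (H : Subgroup G).map (MulAut.conj ((1 : R) : G)).toMonoidHom = H
        ext x
        rw [mem_map_conj]
        simp)
      mul_smul := fun a b H => Subtype.ext (by
        show (H : Subgroup G).map (MulAut.conj ((a * b : R) : G)).toMonoidHom =
          ((H : Subgroup G).map (MulAut.conj (b : G)).toMonoidHom).map (MulAut.conj (a : G)).toMonoidHom
        ext x
        rw [mem_map_conj, mem_map_conj, mem_map_conj]
        simp [mul_assoc]) }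
  have hfixed : MulAction.fixedPoints R 𝒜 = ∅ := by
    refine Set.eq_empty_iff_forall_notMem.mpr fun H hH => ?_
    obtain ⟨x, ⟨hx, hxc⟩, hxH⟩ := (hmem𝒜 _).mp H.2
    obtain ⟨v, hvg, hxv, -⟩ := hs.exists_gd_rep hx hxc
    have hA : CN N v = (H : Subgroup G) := by rw [← hxH]; show C v ⊓ N = C x ⊓ N; rw [hxv]
    refine hs.not_normal hvg (hs.normal_of_R hvg hR fun g hg => ?_)
    have h1 : (H : Subgroup G).map (MulAut.conj g).toMonoidHom = H :=
      congrArg Subtype.val (hH ⟨g, hg⟩)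
    rw [hA]
    exact mem_normalizer_fintype fun k hk => h1 ▸ mem_map_of_mem _ hk
  have hdvd : r ∣ 𝒜.card := by
    have h := hR.isPGroup.card_modEq_card_fixedPoints 𝒜
    have h0 : Nat.card (MulAction.fixedPoints R 𝒜) = 0 := by rw [hfixed]; simp
    rw [h0, Nat.card_eq_fintype_card, Fintype.card_coe] at h
    exact Nat.modEq_zero_iff_dvd.mp h
  -- counting
  obtain ⟨y, hy⟩ := hs.exgd
  set Z := N ⊓ center G
  have hZA : ∀ x, Z ≤ CN N x := fun x z hz => ⟨center_le_C x hz.2, hz.1⟩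
  obtain ⟨j, hj⟩ : Nat.card Z ∣ Nat.card (CN N y) := card_dvd_of_le (hZA y)
  have hfib : ∀ H ∈ 𝒜, (F.filter fun x => CN N x = H).card + Nat.card Z = Nat.card (CN N y) := by
    intro H hH
    obtain ⟨x₀, ⟨hx₀, hx₀c⟩, rfl⟩ := (hmem𝒜 H).mp hH
    obtain ⟨v, hvg, hxv, -⟩ := hs.exists_gd_rep hx₀ hx₀c
    rw [← hs.card_CN hx₀ hx₀c hy.1 hy.2.1]
    have hunion : Finset.univ.filter (fun x => x ∈ CN N x₀) =
        (F.filter fun x => CN N x = CN N x₀) ∪ Finset.univ.filter (fun x => x ∈ Z) := by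
      ext x
      simp only [Finset.mem_union, Finset.mem_filter, Finset.mem_univ, true_and, hmemF]
      constructor
      · intro hx
        by_cases hxc : x ∈ center G
        · exact Or.inr ⟨hx.2, hxc⟩
        · refine Or.inl ⟨⟨hx.2, hxc⟩, ?_⟩
          show C x ⊓ N = C x₀ ⊓ N
          rw [hxv, hs.gd_eq hvg ⟨hxv ▸ hx.1, hx.2⟩ hxc]
      · rintro (⟨⟨hx, -⟩, he⟩ | hx)
        · exact he ▸ ⟨self_mem_C x, hx⟩
        · exact hZA x₀ hx
    have hdisj : Disjoint (F.filter fun x => CN N x = CN N x₀) (Finset.univ.filter fun x => x ∈ Z) := by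
      rw [Finset.disjoint_left]
      intro x hx hxZ
      simp only [Finset.mem_filter, hmemF, Finset.mem_univ, true_and] at hx hxZ
      exact hx.1.2 hxZ.2
    rw [Nat.card_eq_fintype_card, Nat.card_eq_fintype_card, Fintype.card_subtype, Fintype.card_subtype,
      hunion, Finset.card_union_of_disjoint hdisj]
  have hsplit : Nat.card N = F.card + Nat.card Z := by
    rw [Nat.card_eq_fintype_card, Nat.card_eq_fintype_card, Fintype.card_subtype, Fintype.card_subtype,
      ← Finset.card_filter_add_card_filter_not (s := Finset.univ.filter fun x => x ∈ N)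
        (fun x => x ∈ center G), add_comm, Finset.filter_filter, Finset.filter_filter]
    congr 2
    ext a
    simp [Z]
  have hsum : F.card + 𝒜.card * Nat.card Z = 𝒜.card * Nat.card (CN N y) := by
    rw [Finset.card_eq_sum_card_image (fun x => CN N x) F, ← h𝒜, ← smul_eq_mul, ← Finset.sum_const,
      ← Finset.sum_add_distrib, Finset.sum_congr rfl hfib, Finset.sum_const, smul_eq_mul]
  obtain ⟨D, hD⟩ := exists_sylowIn (p := r) (CN N y)
  obtain ⟨k, hk⟩ : Nat.card Z ∣ Nat.card N := card_dvd_of_le inf_le_left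
  have hrk : r ∣ k := by
    have hrel : (center G).relIndex N = k :=
      Nat.eq_of_mul_eq_mul_left Nat.card_pos ((card_inf_mul (center G) N).trans hk)
    rw [← hrel, ← hs.relIndex_center hy hD]
    have hDN : D ≤ N := hD.le.trans inf_le_right
    have := relIndex_dvd_index_of_normal ((center G).subgroupOf N) (D.subgroupOf N)
    rwa [relIndex_subgroupOf hDN] at this
  have hZpos : 0 < Nat.card Z := Nat.card_pos
  have key : k + 𝒜.card = 1 + 𝒜.card * j := Nat.eq_of_mul_eq_mul_left hZpos (by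
    have : F.card + Nat.card Z = Nat.card Z * k := hsplit ▸ hk
    rw [mul_add, mul_add, ← this, mul_one, ← mul_assoc, mul_comm (Nat.card Z) 𝒜.card, mul_assoc, ← hj,
      ← hsum]
    ring)
  have h1 : r ∣ k + 𝒜.card := dvd_add hrk hdvd
  rw [key, ← Nat.dvd_add_iff_left (hdvd.mul_right j)] at h1
  exact hr.out.ne_one (Nat.dvd_one.mp h1)

/-- A normal subgroup of class sizes `1` and `m` containing a noncentral Sylow subgroup is nilpotent. -/
theorem nilpotent_of_two_indices (hN : N.Normal)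
    (hsame : ∀ x ∈ N, x ∉ center G → ∀ y ∈ N, y ∉ center G → cl x = cl y)
    (hrmem : ∀ x : G, PEl r x → x ∈ N) (hexr : ∃ w : G, PEl r w ∧ w ∉ center G) :
    Group.IsNilpotent N := by
  by_cases hab : ∀ a ∈ N, ∀ b ∈ N, Commute a b
  · refine ⟨⟨1, ?_⟩⟩
    rw [Subgroup.upperCentralSeries_one, eq_top_iff]
    exact fun x _ => mem_center_iff.mpr fun g => Subtype.ext (hab g g.2 x x.2).eq
  by_cases hgd : ∃ y, Gd N r y
  · exact (Setting.false ⟨hN, hsame, hrmem, hexr, hgd, hab⟩).elim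
  have hp : IsPGroup r (N ⧸ center N) := by
    intro g
    obtain ⟨⟨x, hx⟩, rfl⟩ := QuotientGroup.mk_surjective g
    obtain ⟨a, b, hb, hab'⟩ :=
      Nat.exists_eq_pow_mul_and_not_dvd (isOfFinOrder_of_finite x).orderOf_pos.ne' r hr.out.ne_one
    refine ⟨a, ?_⟩
    rw [← QuotientGroup.mk_pow, QuotientGroup.eq_one_iff]
    have hxc : x ^ r ^ a ∈ center G := by
      by_contra hxc
      obtain ⟨p, w, hp, hwp, hwz, hwc⟩ := exists_pel_notMem (center G) hxc
      have hwN : w ∈ N := zpowers_le.mpr (pow_mem hx _) hwz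
      refine hgd ⟨w, hwN, hwc, p, hp, fun hpr => hwc ?_, hwp⟩
      subst hpr
      have hwb : w ^ b = 1 := by
        obtain ⟨i, rfl⟩ := mem_zpowers_iff.mp hwz
        rw [← zpow_natCast ((x ^ p ^ a) ^ i), ← zpow_mul, mul_comm, zpow_mul, zpow_natCast,
          ← pow_mul, ← hab', pow_orderOf_eq_one, one_zpow]
      obtain ⟨l, hl⟩ := hwp
      have h2 := Nat.dvd_gcd (orderOf_dvd_of_pow_eq_one hl) (orderOf_dvd_of_pow_eq_one hwb)
      rw [((hp.coprime_iff_not_dvd.mpr hb).pow_left l).gcd_eq_one, Nat.dvd_one, orderOf_eq_one_iff] at h2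
      rw [h2]
      exact one_mem _
    exact mem_center_iff.mpr fun g => Subtype.ext (mem_center_iff.mp hxc g)
  exact Group.of_quotient_center_nilpotent hp.isNilpotent

end CfsgLib.ClassSizes3
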