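import Cfsg.Agent.Lib.ClassSizes3.TwoIndexRank

/-!
For a prime `p ≠ r` with a noncentral `p`-element in `N`: the class size has `p`-part `p`, `p ∣ r - 1`,
and every centralizer in `N` meets a Sylow `p`-subgroup of `N` in a subgroup of index `p`.
-/

set_option autoImplicit false

namespace CfsgLib.ClassSizes3

open Subgroup
open scoped IsMulCommutative

variable {G : Type*} [Group G] [Finite G] {N : Subgroup G} {r : ℕ} [hr : Fact r.Prime]

theorem Setting.map_conj_N (hs : Setting N r) (c : G) : N.map (MulAut.conj c).toMonoidHom = N := by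
  ext x
  rw [mem_map_conj]
  exact ⟨fun h => by simpa [mul_assoc] using hs.normal.conj_mem _ h c,
    fun h => by simpa [mul_assoc] using hs.normal.conj_mem x h c⁻¹⟩

theorem Setting.shift_norm (hs : Setting N r) {g z : G} (h : shift g z ∈ center G) :
    g ∈ normalizer (CN N z : Set G) := by
  refine mem_normalizer_fintype fun k hk => ⟨?_, hs.normal.conj_mem k hk.2 g⟩
  rw [← C_conj_of_shift h]
  exact conj_mem_conj hk.1

/-- A `p`-element `q` shifting `u ∈ D` centrally shifts `z` trivially. -/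
theorem Setting.q_fix (hs : Setting N r) {z : G} (hz : Gd N r z) {p : ℕ} [hp : Fact p.Prime]
    (hpr : p ≠ r) (hzpow : z ^ p ∈ center G) {u n q : G} (hu : u ∈ CN N z) (huc : u ∉ center G)
    (hn : n ∈ normalizer (CN N z : Set G)) (hnN : n ∈ N) (hnA : n ∉ CN N z) (hnr : n ^ r ∈ CN N z)
    (hnu : shift n u ∈ center G) (hqz : shift q z ∈ center G) (hqu : shift q u ∈ center G) :
    q ∈ C z := by
  set A := CN N z
  haveI : IsMulCommutative A := ⟨⟨fun a b => Subtype.ext (mem_C.mp (hs.gd_comm hz b.2 a.2))⟩⟩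
  set n' := q * n * q⁻¹
  have hn'u : n' * u * n'⁻¹ = n * u * n⁻¹ := by
    have h1 : q * (n * u * n⁻¹) * q⁻¹ = n' * (q * u * q⁻¹) * n'⁻¹ := by simp only [n']; group
    rw [shift_spec n u, shift_spec q u] at h1
    have h2 : q * (shift n u * u) * q⁻¹ = shift q u * (shift n u * u) := by
      calc q * (shift n u * u) * q⁻¹ = (q * shift n u) * u * q⁻¹ := by group
        _ = shift n u * (q * u * q⁻¹) := by rw [mem_center_iff.mp hnu q]; group
        _ = shift n u * shift q u * u := by rw [shift_spec q u, mul_assoc]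
        _ = shift q u * (shift n u * u) := by rw [← mem_center_iff.mp hnu (shift q u), mul_assoc]
    have h3 : n' * (shift q u * u) * n'⁻¹ = shift q u * (n' * u * n'⁻¹) := by
      calc n' * (shift q u * u) * n'⁻¹ = (n' * shift q u) * u * n'⁻¹ := by group
        _ = shift q u * (n' * u * n'⁻¹) := by rw [mem_center_iff.mp hqu n']; group
    rw [h2, h3] at h1
    rw [shift_spec n u]
    exact (mul_left_cancel h1).symm
  set α := n⁻¹ * n'
  have hα : α ∈ A := by
    refine ⟨hs.gd_eq hz hu huc ▸ mem_C.mpr ?_, N.mul_mem (N.inv_mem hnN) (hs.normal.conj_mem n hnN q)⟩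
    have h1 : n⁻¹ * (n' * u * n'⁻¹) * n = u := by rw [hn'u]; group
    calc α * u = n⁻¹ * (n' * u * n'⁻¹) * n * α := by simp only [α]; group
      _ = u * α := by rw [h1]
  set f := shift q z
  have hfA : f ∈ A := ⟨center_le_C z hqz,
    N.mul_mem (hs.normal.conj_mem z hz.1 q) (N.inv_mem hz.1)⟩
  let β : MulAut A := A.normalizerMonoidHom ⟨q, hs.shift_norm hqz⟩
  let γ : MulAut A := A.normalizerMonoidHom ⟨n, hn⟩
  let f' : A := ⟨f, hfA⟩
  have hβ : ∀ v : A, ((β v : A) : G) = q * v * q⁻¹ := fun _ => rfl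
  have hγ : ∀ v : A, ((γ v : A) : G) = n * v * n⁻¹ := fun _ => rfl
  have hstep : ∀ v : A, β v = v * f' → β (γ v) = γ v * f' := by
    intro v hv
    have hv' : q * v * q⁻¹ = v * f := (hβ v).symm.trans (congrArg Subtype.val hv)
    refine Subtype.ext ?_
    rw [hβ, hγ]
    show q * (n * v * n⁻¹) * q⁻¹ = ((γ v : A) : G) * f
    rw [hγ]
    have hcomm : α * (v * f) = (v * f) * α := mem_C.mp (hs.gd_comm hz (mul_mem v.2 hfA) hα)
    calc q * (n * v * n⁻¹) * q⁻¹ = n * (α * (q * v * q⁻¹) * α⁻¹) * n⁻¹ := by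
          simp only [α, n']; group
      _ = n * (v * f) * n⁻¹ := by rw [hv', hcomm, mul_inv_cancel_right]
      _ = n * v * (f * n⁻¹) := by group
      _ = n * v * n⁻¹ * f := by rw [← mem_center_iff.mp hqz n⁻¹, mul_assoc (n * v)]
  let z' : A := ⟨z, self_mem_C z, hz.1⟩
  have hiter : ∀ i : ℕ, β ((γ ^ i) z') = (γ ^ i) z' * f' := by
    intro i
    induction i with
    | zero =>
      refine Subtype.ext ?_
      rw [pow_zero, MulAut.one_apply, hβ]
      show q * z * q⁻¹ = z * f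
      rw [shift_spec q z, ← mem_center_iff.mp hqz z]
    | succ i ih =>
      rw [pow_succ', MulAut.mul_apply]
      exact hstep _ ih
  have hγr : γ ^ r = 1 := by
    ext v
    simp only [γ, ← map_pow, MulAut.one_apply]
    show n ^ r * v * (n ^ r)⁻¹ = (v : G)
    rw [mem_C.mp (hs.gd_comm hz v.2 hnr), mul_inv_cancel_right]
  set b := ∏ i ∈ Finset.range r, (γ ^ i) z'
  have hb : γ b = b := norm_fixed γ hγr z'
  have hbc : (b : G) ∈ center G := hs.not_fix hz hnN hnA b.2 (mem_C.mpr (by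
    have := congrArg Subtype.val hb
    rw [hγ] at this
    exact mul_inv_eq_iff_eq_mul.mp this))
  have hbeta : β b = b * f' ^ r := by
    simp only [b, map_prod, hiter, Finset.prod_mul_distrib, Finset.prod_const, Finset.card_range]
  have hfr : f ^ r = 1 := by
    have := congrArg Subtype.val hbeta
    rw [hβ, mem_center_iff.mp hbc q, mul_inv_cancel_right] at this
    simpa [f'] using this
  have hfp : f ^ p = 1 := shift_mem_of_pow hqz hzpow
  have h1 := Nat.dvd_gcd (orderOf_dvd_of_pow_eq_one hfp) (orderOf_dvd_of_pow_eq_one hfr)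
  rw [(Nat.coprime_primes hp.out hr.out).mpr hpr, Nat.dvd_one, orderOf_eq_one_iff] at h1
  exact shift_eq_one.mp h1

theorem Setting.exists_zn (hs : Setting N r) {p : ℕ} [hp : Fact p.Prime] (hpr : p ≠ r)
    {Q : Subgroup G} (hQ : SylowIn p ⊤ Q) {v : G} (hv : PEl p v) (hvN : v ∈ N) (hvc : v ∉ center G) :
    ∃ z ∈ Q ⊓ N, Gd N r z ∧ z ^ p ∈ center G ∧ ∀ q ∈ Q, shift q z ∈ center G := by
  obtain ⟨y, hy, -, hyc⟩ := (hs.sylow_inf_N hQ).exists_noncentral hv hvN hvc
  have hn : Q ≤ normalizer ((Q ⊓ N : Subgroup G) : Set G) := fun g hg =>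
    mem_normalizer_fintype fun k hk =>
      ⟨Q.mul_mem (Q.mul_mem hg hk.1) (Q.inv_mem hg), hs.normal.conj_mem k hk.2 g⟩
  obtain ⟨z, hz, hzc, hzp, hzs⟩ := exists_shift hQ.isPGroup inf_le_left hn (fun h => hyc (h hy))
  exact ⟨z, hz, ⟨hz.2, hzc, p, hp.out, hpr, PEl.of_mem hQ.isPGroup hz.1⟩, hzp, hzs⟩

/-- The data attached to `z`: `u` in the Sylow `r`-subgroup `D` and a shifting `r`-element `n`. -/
theorem Setting.exists_dun (hs : Setting N r) {z : G} (hz : Gd N r z) :
    ∃ (D : Subgroup G) (n u : G), SylowIn r (CN N z) D ∧ u ∈ D ∧ u ∉ center G ∧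
      n ∈ normalizer (CN N z : Set G) ∧ n ∉ CN N z ∧ PEl r n ∧ n ^ r ∈ CN N z ∧
      shift n u ∈ center G := by
  obtain ⟨D, hD⟩ := exists_sylowIn (p := r) (CN N z)
  obtain ⟨R, hR, hDR⟩ := exists_sylowIn_ge (H := (⊤ : Subgroup G)) hD.isPGroup le_top
  obtain ⟨hrel, hTA, n, hn, hnA⟩ := hs.t_step hz hD hR hDR
  obtain ⟨w, hw, hwc⟩ := hs.syl_noncentral hz hD
  set T := R ⊓ normalizer (D : Set G)
  obtain ⟨u, hu, huc, -, hush⟩ := exists_shift (hR.isPGroup.to_le (inf_le_left : T ≤ R))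
    (le_inf hDR le_normalizer) inf_le_right (fun h => hwc (h hw))
  haveI : (D.subgroupOf T).Normal :=
    ⟨fun d hd g => (mem_normalizer_iff.mp g.2.2 d).mp hd⟩
  have hpow := (D.subgroupOf T).pow_index_mem (⟨n, hn⟩ : T)
  rw [← relIndex, hrel] at hpow
  exact ⟨D, n, u, hD, hu, huc, hTA hn, hnA, PEl.of_mem hR.isPGroup hn.1, hD.le hpow, hush n hn⟩

theorem Setting.p_data (hs : Setting N r) {p : ℕ} [hp : Fact p.Prime] (hpr : p ≠ r) {v : G}
    (hv : PEl p v) (hvN : v ∈ N) (hvc : v ∉ center G) :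
    p ∣ r - 1 ∧ ∀ x ∈ N, x ∉ center G →
      (Nat.card (C x)).factorization p + 1 = (Nat.card G).factorization p := by
  obtain ⟨Q, hQ⟩ := exists_sylowIn (p := p) (⊤ : Subgroup G)
  obtain ⟨z, hzP, hz, hzp, hzs⟩ := hs.exists_zn hpr hQ hv hvN hvc
  obtain ⟨D, n, u, hD, hu, huc, hn, hnA, hnr, hnpow, hnu⟩ := hs.exists_dun hz
  have hQD : Q ≤ normalizer (D : Set G) := fun g hg =>
    hs.norm_syl hz hD (hs.shift_norm (hzs g hg))
  obtain ⟨K, hKn, hK, hKi, q₀, hq₀⟩ := exists_aut_hom hr.out hQD (hs.relIndex_center hz hD) hu huc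
  let ψ : Q →* center G :=
    { toFun := fun q => ⟨shift (q : G) z, hzs q q.2⟩
      map_one' := Subtype.ext (shift_one z)
      map_mul' := fun a b => Subtype.ext (shift_mul (hzs b b.2)) }
  have hker : ψ.ker = (C z).subgroupOf Q := by
    ext q
    rw [MonoidHom.mem_ker, mem_subgroupOf]
    exact ⟨fun h => shift_eq_one.mp (congrArg Subtype.val h), fun h => Subtype.ext (shift_eq_one.mpr h)⟩
  have hKψ : K ≤ ψ.ker := fun q hq => by
    rw [hker]
    exact hs.q_fix hz hpr hzp (hD.le hu) huc hn (hs.rmem n hnr) hnA hnpow hnu (hzs q q.2) ((hK q).mp hq)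
  have hidx : ψ.ker.index ∣ p := by
    rw [index_ker]
    have hle : ψ.range ≤ zpowers (ψ q₀) := by
      rintro _ ⟨q, rfl⟩
      obtain ⟨i, hi⟩ := hq₀ q
      refine ⟨i, ?_⟩
      have h1 : ψ (q⁻¹ * q₀ ^ i) = 1 := hKψ hi
      rw [map_mul, map_inv, map_zpow, inv_mul_eq_one] at h1
      exact h1.symm
    refine (card_dvd_of_le hle).trans ?_
    rw [Nat.card_zpowers]
    refine orderOf_dvd_of_pow_eq_one (Subtype.ext ?_)
    rw [SubgroupClass.coe_pow]
    exact shift_mem_of_pow (hzs q₀ q₀.2) hzp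
  have hne : (C z).relIndex Q ≠ 1 := fun h => by
    have hle := relIndex_eq_one.mp h
    have h1 := card_le_of_isPGroup hQ.isPGroup hle
    rw [hQ.card, card_top, Nat.pow_le_pow_iff_right hp.out.one_lt] at h1
    exact absurd h1 (not_le.mpr (hs.fact_lt hv hvN hvc hz.1 hz.2.1))
  rw [hker] at hidx hKψ
  have hp' : (C z).relIndex Q = p := ((Nat.dvd_prime hp.out).mp hidx).resolve_left hne
  refine ⟨hp' ▸ (index_dvd_of_le hKψ).trans hKi, fun x hx hxc => ?_⟩
  have hQn : Q ≤ normalizer (C z : Set G) := mem_normalizer_C_of_shift fun g hg => hzs g hg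
  have h1 := card_inf_mul (C z) Q
  rw [(sylowIn_inf hQ hQn).card, hQ.card, card_top, hp', ← pow_succ] at h1
  rw [hs.fact_eq hx hxc hz.1 hz.2.1]
  exact Nat.pow_right_injective hp.out.two_le h1

/-- Every centralizer in `N` contains a `p`-subgroup of index at most `p` in a Sylow subgroup of `N`. -/
theorem Setting.p_bound (hs : Setting N r) {p : ℕ} [hp : Fact p.Prime] (hpr : p ≠ r) {v : G}
    (hv : PEl p v) (hvN : v ∈ N) (hvc : v ∉ center G) {P : Subgroup G} (hP : SylowIn p N P) {x : G}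
    (hx : x ∈ N) (hxc : x ∉ center G) :
    ∃ S : Subgroup G, IsPGroup p S ∧ S ≤ CN N x ∧ Nat.card P ≤ p * Nat.card S := by
  obtain ⟨S, hS⟩ := exists_sylowIn (p := p) (C x)
  obtain ⟨Q, hQ, hSQ⟩ := exists_sylowIn_ge (H := (⊤ : Subgroup G)) hS.isPGroup le_top
  refine ⟨S ⊓ N, hS.isPGroup.to_le inf_le_left, le_inf (inf_le_left.trans hS.le) inf_le_right, ?_⟩
  have h1 := card_inf_mul N S
  have h2 := card_inf_mul N Q
  have hpos : N.relIndex Q ≠ 0 := index_ne_zero_of_finite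
  have h3 : Nat.card Q = p * Nat.card S := by
    rw [hQ.card, hS.card, card_top, ← (hs.p_data hpr hv hvN hvc).2 x hx hxc, pow_succ, mul_comm]
  have h4 : Nat.card P = Nat.card (Q ⊓ N : Subgroup G) := by rw [hP.card, (hs.sylow_inf_N hQ).card]
  rw [h3, ← h1, ← h4] at h2
  have h5 : Nat.card P * N.relIndex Q ≤ p * Nat.card (S ⊓ N : Subgroup G) * N.relIndex Q := by
    rw [h2, mul_assoc]
    exact Nat.mul_le_mul_left _ (Nat.mul_le_mul_left _ (relIndex_le_of_le_right hSQ hpos))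
  exact Nat.le_of_mul_le_mul_right h5 (Nat.pos_of_ne_zero hpos)

/-- A Sylow `p`-subgroup of `N` has order more than `p` modulo the centre. -/
theorem Setting.not_small (hs : Setting N r) {p : ℕ} [hp : Fact p.Prime] (hpr : p ≠ r) {v : G}
    (hv : PEl p v) (hvN : v ∈ N) (hvc : v ∉ center G) {Q : Subgroup G} (hQ : SylowIn p ⊤ Q) :
    ¬ (center G).relIndex (Q ⊓ N) ≤ p := by
  intro hle
  set P := Q ⊓ N
  have hP : SylowIn p N P := hs.sylow_inf_N hQ
  obtain ⟨z, hzP, hz, hzp, hzs⟩ := hs.exists_zn hpr hQ hv hvN hvc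
  have hPrel : (center G).relIndex P = p := by
    obtain ⟨k, hk⟩ := IsPGroup.iff_card.mp hP.isPGroup
    have hdvd : (center G).relIndex P ∣ p ^ k := hk ▸ Dvd.intro_left _ (card_inf_mul (center G) P)
    obtain ⟨i, -, hi⟩ := (Nat.dvd_prime_pow hp.out).mp hdvd
    rw [hi] at hle ⊢
    have h1 : i ≤ 1 := (Nat.pow_le_pow_iff_right hp.out.one_lt).mp (by rwa [pow_one])
    have h0 : i ≠ 0 := fun h => hz.2.1 (relIndex_eq_one.mp (hi.trans (by rw [h, pow_zero])) hzP)
    rw [show i = 1 by omega, pow_one]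
  have hPC : P ≤ C z := by
    have h1 := relIndex_mul_relIndex (center G ⊓ P) (C z ⊓ P) P
      (inf_le_inf_right P (center_le_C z)) inf_le_right
    rw [inf_relIndex_right (center G) P, hPrel] at h1
    have h2 : (center G ⊓ P).relIndex (C z ⊓ P) ≠ 1 := fun h =>
      hz.2.1 (relIndex_eq_one.mp h (show z ∈ C z ⊓ P from ⟨self_mem_C z, hzP⟩)).1
    have h3 : (center G ⊓ P).relIndex (C z ⊓ P) = p :=
      ((Nat.dvd_prime hp.out).mp (Dvd.intro _ h1)).resolve_left h2
    rw [h3] at h1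
    exact fun x hx => (relIndex_eq_one.mp (Nat.eq_of_mul_eq_mul_left hp.out.pos
      (h1.trans (mul_one p).symm)) hx).1
  have hPA : SylowIn p (CN N z) P := by
    refine ⟨le_inf hPC inf_le_right, hP.isPGroup, le_antisymm
      (card_le_of_isPGroup hP.isPGroup (le_inf hPC inf_le_right)) ?_⟩
    rw [hP.card]
    exact Nat.pow_le_pow_right hp.out.pos
      ((Nat.factorization_le_iff_dvd Nat.card_pos.ne' Nat.card_pos.ne').mpr
        (card_dvd_of_le inf_le_right) p)
  obtain ⟨D, n, u, hD, hu, huc, hn, hnA, hnr, hnpow, hnu⟩ := hs.exists_dun hz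
  have hnP : n ∈ normalizer (P : Set G) := hs.norm_syl hz hPA hn
  obtain ⟨K, hKn, hK, hKi, -⟩ :=
    exists_aut_hom hp.out (Q := zpowers n) (zpowers_le.mpr hnP) hPrel hzP hz.2.1
  let g : zpowers n := ⟨n, mem_zpowers n⟩
  have h1 : g ^ r ∈ K := (hK _).mpr (by
    rw [SubgroupClass.coe_pow, show shift (n ^ r) z = 1 from shift_eq_one.mpr hnpow.1]
    exact one_mem _)
  have h2 : orderOf (g : zpowers n ⧸ K) ∣ r := orderOf_dvd_of_pow_eq_one
    ((QuotientGroup.mk_pow K g r).symm.trans ((QuotientGroup.eq_one_iff _).mpr h1))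
  have h3 : orderOf (g : zpowers n ⧸ K) ∣ p - 1 :=
    (_root_.orderOf_dvd_natCard _).trans (by rw [← index_eq_card]; exact hKi)
  have hlt : p < r := by
    have := Nat.le_of_dvd (by have := hr.out.two_le; omega) (hs.p_data hpr hv hvN hvc).1
    have := hr.out.two_le
    omega
  have h4 : orderOf (g : zpowers n ⧸ K) = 1 := by
    rcases (Nat.dvd_prime hr.out).mp h2 with h | h
    · exact h
    · rw [h] at h3
      have := Nat.le_of_dvd (by have := hp.out.two_le; omega) h3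
      omega
  have hgK : g ∈ K := (QuotientGroup.eq_one_iff g).mp (orderOf_eq_one_iff.mp h4)
  have hsh : shift n z ∈ center G := (hK g).mp hgK
  refine hnA ⟨?_, hs.rmem n hnr⟩
  exact commute_of_central_shift hr.out hp.out (Ne.symm hpr) hnr (PEl.of_mem hP.isPGroup hzP) hsh
    (by rw [shift_spec, mem_center_iff.mp hsh z])

/-- Every noncentral element of `N` commutes with a noncentral `p`-element of `N`. -/
theorem Setting.exists_p (hs : Setting N r) {p : ℕ} [hp : Fact p.Prime] (hpr : p ≠ r) {v : G}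
    (hv : PEl p v) (hvN : v ∈ N) (hvc : v ∉ center G) {x : G} (hx : x ∈ N) (hxc : x ∉ center G) :
    ∃ w ∈ CN N x, PEl p w ∧ w ∉ center G ∧ Gd N r w ∧ C x = C w := by
  obtain ⟨Q, hQ⟩ := exists_sylowIn (p := p) (⊤ : Subgroup G)
  obtain ⟨S, hS, hSx, hcard⟩ := hs.p_bound hpr hv hvN hvc (hs.sylow_inf_N hQ) hx hxc
  by_cases hSc : S ≤ center G
  · exfalso
    refine hs.not_small hpr hv hvN hvc hQ ?_
    have hSP : S ≤ (Q ⊓ N) ⊓ center G := fun s hs' =>
      ⟨(hs.sylow_inf_N hQ).center_mem (PEl.of_mem hS hs') (hSx hs').2 (hSc hs'), hSc hs'⟩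
    have h1 := card_inf_mul (center G) (Q ⊓ N)
    have h2 : Nat.card ((Q ⊓ N) ⊓ center G : Subgroup G) * (center G).relIndex (Q ⊓ N) ≤
        Nat.card ((Q ⊓ N) ⊓ center G : Subgroup G) * p := by
      rw [h1, mul_comm]
      exact hcard.trans (Nat.mul_le_mul_left _ (card_le_of_le hSP))
    exact Nat.le_of_mul_le_mul_left h2 Nat.card_pos
  · obtain ⟨w, hw, hwc⟩ := SetLike.not_le_iff_exists.mp hSc
    have hwg : Gd N r w := ⟨(hSx hw).2, hwc, p, hp.out, hpr, PEl.of_mem hS hw⟩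
    exact ⟨w, hSx hw, PEl.of_mem hS hw, hwc, hwg, hs.gd_eq hwg ⟨C_comm (hSx hw).1, hx⟩ hxc⟩

end CfsgLib.ClassSizes3
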