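import Cfsg.Agent.Lib.ClassSizes3.TwoIndexSetting

/-!
The Sylow `r`-subgroup of the centralizer of an `r'`-element has order `r` modulo the centre.
-/

set_option autoImplicit false

namespace CfsgLib.ClassSizes3

open Subgroup

variable {G : Type*} [Group G] [Finite G] {N : Subgroup G} {r : ℕ} [hr : Fact r.Prime]

theorem Setting.card_D_eq (hs : Setting N r) {y y' : G} (hy : Gd N r y) (hy' : Gd N r y')
    {D D' : Subgroup G} (hD : SylowIn r (CN N y) D) (hD' : SylowIn r (CN N y') D') :
    Nat.card D = Nat.card D' := by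
  rw [(hs.syl_r hy hD).card, (hs.syl_r hy' hD').card, hs.fact_eq hy.1 hy.2.1 hy'.1 hy'.2.1]

theorem Setting.relIndex_center_eq (hs : Setting N r) {y y' : G} (hy : Gd N r y) (hy' : Gd N r y')
    {D D' : Subgroup G} (hD : SylowIn r (CN N y) D) (hD' : SylowIn r (CN N y') D') :
    (center G).relIndex D = (center G).relIndex D' := by
  have key : ∀ (z z' : G) (E E' : Subgroup G), Gd N r z' → SylowIn r (CN N z) E →
      SylowIn r (CN N z') E' → E ⊓ center G ≤ E' ⊓ center G := by
    intro z z' E E' hz' hE hE' x hx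
    have hxr := PEl.of_mem hE.isPGroup hx.1
    exact ⟨hs.mem_syl hz' hE' ⟨center_le_C z' hx.2, hs.rmem x hxr⟩ hxr, hx.2⟩
  have heq : D ⊓ center G = D' ⊓ center G :=
    le_antisymm (key y y' D D' hy' hD hD') (key y' y D' D hy hD' hD)
  have h1 := card_inf_mul (center G) D
  have h2 := card_inf_mul (center G) D'
  rw [heq, hs.card_D_eq hy hy' hD hD', ← h2] at h1
  exact Nat.eq_of_mul_eq_mul_left Nat.card_pos h1

theorem Setting.relIndex_eq_r (hs : Setting N r) {y : G} (hy : Gd N r y) {D : Subgroup G}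
    (hD : SylowIn r (CN N y) D) (hle : (center G).relIndex D ≤ r) : (center G).relIndex D = r := by
  obtain ⟨w, hw, hwc⟩ := hs.syl_noncentral hy hD
  obtain ⟨k, hk⟩ := IsPGroup.iff_card.mp hD.isPGroup
  have hdvd : (center G).relIndex D ∣ r ^ k := hk ▸ Dvd.intro_left _ (card_inf_mul (center G) D)
  obtain ⟨i, -, hi⟩ := (Nat.dvd_prime_pow hr.out).mp hdvd
  rw [hi] at hle ⊢
  have h1 : i ≤ 1 := (Nat.pow_le_pow_iff_right hr.out.one_lt).mp (by rwa [pow_one])
  have h0 : i ≠ 0 := fun h => hwc (relIndex_eq_one.mp (hi.trans (by rw [h, pow_zero])) hw)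
  rw [show i = 1 by omega, pow_one]

theorem Setting.relIndex_le_of_two (hs : Setting N r) {y y' : G} (hy : Gd N r y) (hy' : Gd N r y')
    {D D' : Subgroup G} (hD : SylowIn r (CN N y) D) (hD' : SylowIn r (CN N y') D') (hne : D' ≠ D)
    (hrel : D'.relIndex D ≤ r) : (center G).relIndex D ≤ r := by
  have hcen : D ⊓ D' ≤ D ⊓ center G := fun e he => ⟨he.1, by
    by_contra hec
    have hC : C y = C y' := by rw [← hs.gd_eq hy (hD.le he.1) hec, hs.gd_eq hy' (hD'.le he.2) hec]
    have hle : D' ≤ D := fun x hx => hs.mem_syl hy hD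
      ⟨hC ▸ (hD'.le hx).1, (hD'.le hx).2⟩ (PEl.of_mem hD'.isPGroup hx)
    exact hne (eq_of_le_of_card_ge hle (le_of_eq (hs.card_D_eq hy hy' hD hD')))⟩
  have h1 := card_inf_mul D' D
  have h2 := card_inf_mul (center G) D
  have h4 : Nat.card (D ⊓ center G : Subgroup G) * (center G).relIndex D ≤
      Nat.card (D ⊓ center G : Subgroup G) * r := by
    rw [h2, ← h1]
    exact Nat.mul_le_mul (card_le_of_le hcen) hrel
  exact Nat.le_of_mul_le_mul_left h4 Nat.card_pos

theorem Setting.relIndex_center (hs : Setting N r) {y : G} (hy : Gd N r y) {D : Subgroup G}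
    (hD : SylowIn r (CN N y) D) : (center G).relIndex D = r := by
  refine hs.relIndex_eq_r hy hD ?_
  by_contra hbig
  have hbig' : ∀ (z : G) (E : Subgroup G), Gd N r z → SylowIn r (CN N z) E →
      ¬ (center G).relIndex E ≤ r := fun z E hz hE h => hbig (hs.relIndex_center_eq hy hz hD hE ▸ h)
  -- every Sylow subgroup above `E` normalises it
  have hall : ∀ (z : G) (E R : Subgroup G), Gd N r z → SylowIn r (CN N z) E → SylowIn r ⊤ R → E ≤ R →
      R ⊓ normalizer (E : Set G) = R := by
    intro z E R hz hE hR hER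
    by_contra hne
    obtain ⟨ht, -, -⟩ := hs.t_step hz hE hR hER
    set T := R ⊓ normalizer (E : Set G)
    obtain ⟨h, hhR, hhT, hhn⟩ := exists_normalizing hR.isPGroup (inf_le_left : T ≤ R) hne
    set E' := E.map (MulAut.conj h).toMonoidHom
    have hE' : SylowIn r (CN N (h * z * h⁻¹)) E' := by
      rw [hs.CN_conj]
      exact hE.map_conj h
    have hne' : E' ≠ E := fun he => hhT ⟨hhR, mem_normalizer_fintype fun d hd =>
      (he ▸ mem_map_of_mem _ hd : (MulAut.conj h).toMonoidHom d ∈ E)⟩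
    have hET : E ≤ T := le_inf hER le_normalizer
    have hE'T : E' ≤ T := map_le_iff_le_comap.mpr fun d hd => hhn d (hET hd)
    have hrel : E'.relIndex T = r := by
      have h1 := card_mul_relIndex' hE'T
      have h2 := card_mul_relIndex' hET
      rw [ht, hs.card_D_eq hz (hs.gd_conj hz h) hE hE', ← h1] at h2
      exact (Nat.eq_of_mul_eq_mul_left Nat.card_pos h2).symm
    exact hbig' z E hz hE (hs.relIndex_le_of_two hz (hs.gd_conj hz h) hE hE' hne'
      ((relIndex_le_of_le_right hET (hrel ▸ hr.out.ne_zero)).trans hrel.le))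
  -- all these centralizers are conjugate
  obtain ⟨R, hR, hDR⟩ := exists_sylowIn_ge (H := (⊤ : Subgroup G)) hD.isPGroup le_top
  have hRn : R ≤ normalizer (D : Set G) := inf_eq_left.mp (hall y D R hy hD hR hDR)
  obtain ⟨hrelR, hRA, n, hn, hnA⟩ := hs.t_step hy hD hR hDR
  rw [inf_eq_left.mpr hRn] at hrelR hRA hn
  have hconj : ∀ z : G, Gd N r z → ∃ c ∈ N,
      CN N (c * z * c⁻¹) = CN N y := by
    intro z hz
    obtain ⟨E, hE⟩ := exists_sylowIn (p := r) (CN N z)
    obtain ⟨R', hR', hER'⟩ := exists_sylowIn_ge (H := (⊤ : Subgroup G)) hE.isPGroup le_top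
    obtain ⟨c, hc, hcR⟩ := (hs.sylowIn_N hR).exists_conj hR'.isPGroup (hs.sylowIn_N hR').le
    refine ⟨c, hc, ?_⟩
    set E' := E.map (MulAut.conj c).toMonoidHom
    have hE' : SylowIn r (CN N (c * z * c⁻¹)) E' := by
      rw [hs.CN_conj]
      exact hE.map_conj c
    have hz' := hs.gd_conj hz c
    have hE'R : E' ≤ R := map_le_iff_le_comap.mpr fun d hd => hcR d (hER' hd)
    have hrel : E'.relIndex R = r := by
      have h1 := card_mul_relIndex' hE'R
      have h2 := card_mul_relIndex' hDR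
      rw [hrelR, hs.card_D_eq hy hz' hD hE', ← h1] at h2
      exact (Nat.eq_of_mul_eq_mul_left Nat.card_pos h2).symm
    have heq : E' = D := by
      by_contra hne
      exact hbig (hs.relIndex_le_of_two hy hz' hD hE' hne
        ((relIndex_le_of_le_right hDR (hrel ▸ hr.out.ne_zero)).trans hrel.le))
    obtain ⟨w, hw, hwc⟩ := hs.syl_noncentral hy hD
    have hC : C (c * z * c⁻¹) = C y := by
      rw [← hs.gd_eq hz' (hE'.le (heq ▸ hw)) hwc, hs.gd_eq hy (hD.le hw) hwc]
    show C (c * z * c⁻¹) ⊓ N = C y ⊓ N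
    rw [hC]
  -- so `C_N(y)` is normal in `N`
  have hnorm : N ≤ normalizer (CN N y : Set G) := by
    refine le_normalizer_of_sylow fun q hq => ?_
    haveI := Fact.mk hq
    by_cases hqr : q = r
    · subst hqr
      exact ⟨R, hs.sylowIn_N hR, hRA⟩
    obtain ⟨Q, hQ⟩ := exists_sylowIn (p := q) (⊤ : Subgroup G)
    have hP := hs.sylow_inf_N hQ
    by_cases hPc : Q ⊓ N ≤ center G
    · exact ⟨_, hP, hPc.trans ((center_le_centralizer _).trans (centralizer_le_normalizer _))⟩
    obtain ⟨z, hz, hzc, -, hzs⟩ := exists_shift hP.isPGroup le_rfl le_normalizer hPc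
    have hgz : Gd N r z := ⟨hz.2, hzc, q, hq, hqr, PEl.of_mem hP.isPGroup hz⟩
    obtain ⟨c, hc, hcA⟩ := hconj z hgz
    have hPN : (Q ⊓ N : Subgroup G) ≤ normalizer (CN N z : Set G) := fun g hg => by
      refine mem_normalizer_fintype fun k hk => ⟨?_, hs.normal.conj_mem k hk.2 g⟩
      rw [← C_conj_of_shift (hzs g hg)]
      exact conj_mem_conj hk.1
    refine ⟨(Q ⊓ N).map (MulAut.conj c).toMonoidHom, ?_, ?_⟩
    · have := hP.map_conj c
      rwa [show N.map (MulAut.conj c).toMonoidHom = N from by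
        ext x
        rw [mem_map_conj]
        exact ⟨fun h => by simpa [mul_assoc] using hs.normal.conj_mem _ h c,
          fun h => by simpa [mul_assoc] using hs.normal.conj_mem x h c⁻¹⟩] at this
    · rw [← hcA, hs.CN_conj]
      exact (map_mono hPN).trans (le_normalizer_map _)
  -- an element of `R` outside `D`
  have hnr : PEl r n := PEl.of_mem hR.isPGroup hn
  have hnN : n ∈ N := hs.rmem n hnr
  have hnc : n ∉ center G := fun h => hnA ⟨center_le_C y h, hnN⟩
  obtain ⟨S, hS, hnS⟩ := exists_sylowIn_ge (H := C n) hnr.isPGroup (zpowers_le.mpr (self_mem_C n))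
  obtain ⟨R'', hR'', hSR''⟩ := exists_sylowIn_ge (H := (⊤ : Subgroup G)) hS.isPGroup le_top
  have hDR'' : D ≤ R'' := by
    obtain ⟨c, hc, hcR⟩ := (hs.sylowIn_N hR'').exists_conj hR.isPGroup (hs.sylowIn_N hR).le
    intro d hd
    have hd' : c⁻¹ * d * c ∈ D := by
      have := (mem_normalizer_iff.mp (inv_mem (hs.norm_syl hy hD (hnorm hc))) d).mp hd
      simpa using this
    have := hcR _ (hDR hd')
    simpa [mul_assoc] using this
  have hrel'' : D.relIndex R'' = r := by
    have h1 := card_mul_relIndex' hDR''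
    have h2 := card_mul_relIndex' hDR
    rw [hR''.card, ← hR.card, ← h2, hrelR] at h1
    exact Nat.eq_of_mul_eq_mul_left Nat.card_pos h1
  have hcS : Nat.card S = Nat.card D := by
    rw [hS.card, (hs.syl_r hy hD).card, hs.fact_eq hnN hnc hy.1 hy.2.1]
  have hSD : S ⊓ D ≤ D ⊓ center G := fun a ha =>
    ⟨ha.2, hs.not_fix hy hnN hnA (hD.le ha.2) (C_comm (hS.le ha.1))⟩
  have h1 := card_inf_mul D S
  have h2 := card_inf_mul (center G) D
  have h3 : D.relIndex S ≤ r :=
    (relIndex_le_of_le_right hSR'' (hrel'' ▸ hr.out.ne_zero)).trans hrel''.le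
  have h4 : Nat.card (D ⊓ center G : Subgroup G) * (center G).relIndex D ≤
      Nat.card (D ⊓ center G : Subgroup G) * r := by
    rw [h2, ← hcS, ← h1]
    exact Nat.mul_le_mul (card_le_of_le hSD) h3
  exact hbig (Nat.le_of_mul_le_mul_left h4 Nat.card_pos)

end CfsgLib.ClassSizes3
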