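import Cfsg.Agent.Lib.ClassSizes3.TwoIndexBasic
import Cfsg.Agent.Lib.Subnormal.Cover

/-!
A normal subgroup whose noncentral elements have one class size in the whole group, containing a
noncentral Sylow subgroup: the centralizers of its `r'`-elements are abelian and meet in the centre.
-/

set_option autoImplicit false

namespace CfsgLib.ClassSizes3

open Subgroup

variable {G : Type*} [Group G] [Finite G]

/-- The centralizer of `y` in `N`. -/
abbrev CN (N : Subgroup G) (y : G) : Subgroup G := C y ⊓ N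

/-- A noncentral element of `N` of prime power order prime to `r`. -/
def Gd (N : Subgroup G) (r : ℕ) (y : G) : Prop :=
  y ∈ N ∧ y ∉ center G ∧ ∃ p, p.Prime ∧ p ≠ r ∧ PEl p y

/-- The hypotheses of the indirect proof. -/
structure Setting (N : Subgroup G) (r : ℕ) : Prop where
  normal : N.Normal
  same : ∀ x ∈ N, x ∉ center G → ∀ y ∈ N, y ∉ center G → cl x = cl y
  rmem : ∀ x : G, PEl r x → x ∈ N
  exr : ∃ w : G, PEl r w ∧ w ∉ center G
  exgd : ∃ y, Gd N r y
  nonab : ¬ ∀ a ∈ N, ∀ b ∈ N, Commute a b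

theorem card_inf_mul (H D : Subgroup G) : Nat.card (D ⊓ H : Subgroup G) * H.relIndex D = Nat.card D := by
  have h := relIndex_mul_relIndex ⊥ (D ⊓ H) D bot_le inf_le_left
  rwa [relIndex_bot_left, relIndex_bot_left, inf_relIndex_left] at h

theorem card_mul_relIndex' {H K : Subgroup G} (h : H ≤ K) :
    Nat.card H * H.relIndex K = Nat.card K := by
  have h' := relIndex_mul_relIndex ⊥ H K bot_le h
  rwa [relIndex_bot_left, relIndex_bot_left] at h'

theorem exists_normalizing {p : ℕ} [Fact p.Prime] {R T : Subgroup G} (hR : IsPGroup p R) (hle : T ≤ R)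
    (hne : T ≠ R) : ∃ h ∈ R, h ∉ T ∧ ∀ t ∈ T, h * t * h⁻¹ ∈ T := by
  have := hR.isNilpotent
  have hne' : T.subgroupOf R ≠ ⊤ := fun h => hne (le_antisymm hle (subgroupOf_eq_top.mp h))
  have h := normalizerCondition_of_isNilpotent (G := R) (T.subgroupOf R) (lt_top_iff_ne_top.mpr hne')
  obtain ⟨x, hx, hxT⟩ := SetLike.exists_of_lt h
  exact ⟨x, x.2, hxT, fun t ht => (mem_normalizer_iff.mp hx ⟨t, hle ht⟩).mp ht⟩

theorem SylowIn.map_conj {p : ℕ} {H D : Subgroup G} (h : SylowIn p H D) (c : G) :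
    SylowIn p (H.map (MulAut.conj c).toMonoidHom) (D.map (MulAut.conj c).toMonoidHom) := by
  refine ⟨map_mono h.le, h.isPGroup.map _, ?_⟩
  have key : ∀ K : Subgroup G, Nat.card (K.map (MulAut.conj c).toMonoidHom : Subgroup G) = Nat.card K :=
    fun K => card_map_of_injective (MulAut.conj c).injective
  rw [key, key, h.card]

theorem mem_map_conj {H : Subgroup G} {c x : G} :
    x ∈ H.map (MulAut.conj c).toMonoidHom ↔ c⁻¹ * x * c ∈ H := by
  constructor
  · rintro ⟨k, hk, rfl⟩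
    simpa [mul_assoc] using hk
  · exact fun h => ⟨_, h, by simp [mul_assoc]⟩

theorem le_normalizer_of_sylow {N M : Subgroup G}
    (h : ∀ q : ℕ, q.Prime → ∃ P, SylowIn q N P ∧ P ≤ M) : N ≤ M := by
  have hd : Nat.card N ∣ Nat.card (N ⊓ M : Subgroup G) := by
    refine (Nat.factorization_le_iff_dvd Nat.card_pos.ne' Nat.card_pos.ne').mp fun q => ?_
    by_cases hq : q.Prime
    · haveI := Fact.mk hq
      obtain ⟨P, hP, hPM⟩ := h q hq
      have h1 := card_le_of_isPGroup hP.isPGroup (le_inf hP.le hPM)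
      rw [hP.card] at h1
      exact (Nat.pow_le_pow_iff_right hq.one_lt).mp h1
    · rw [Nat.factorization_eq_zero_of_not_prime _ hq]
      exact Nat.zero_le _
  rw [← eq_of_le_of_card_ge (inf_le_left : N ⊓ M ≤ N) (Nat.le_of_dvd Nat.card_pos hd)]
  exact inf_le_right

variable {N : Subgroup G} {r : ℕ}

theorem Setting.C_eq (hs : Setting N r) {x y : G} (hx : x ∈ N) (hxc : x ∉ center G) (hy : y ∈ N)
    (hyc : y ∉ center G) (h : C x ≤ C y) : C x = C y :=
  eq_of_le_of_cl_eq h (hs.same y hy hyc x hx hxc)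

theorem Setting.fact_eq (hs : Setting N r) {x y : G} (hx : x ∈ N) (hxc : x ∉ center G) (hy : y ∈ N)
    (hyc : y ∉ center G) (p : ℕ) :
    (Nat.card (C x)).factorization p = (Nat.card (C y)).factorization p := by
  have h1 := card_C_mul_cl x
  rw [← card_C_mul_cl y, hs.same x hx hxc y hy hyc] at h1
  rw [Nat.eq_of_mul_eq_mul_right (Nat.pos_of_ne_zero index_ne_zero_of_finite) h1]

theorem Setting.coprime (hs : Setting N r) {p q : ℕ} (hp : p.Prime) (hq : q.Prime) (hpq : p ≠ q)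
    {x y : G} (hx : x ∈ N) (hxp : PEl p x) (hxc : x ∉ center G) (hy : y ∈ N) (hyq : PEl q y)
    (hyc : y ∉ center G) (hxy : x ∈ C y) : C x = C y := by
  have hC := C_mul (show Commute x y from mem_C.mp hxy) (PEl.coprime hp hq hpq hxp hyq)
  have hnc : x * y ∉ center G := fun h => hxc (C_eq_top.mp (top_le_iff.mp (by
    rw [← C_eq_top.mpr h, hC]
    exact inf_le_left)))
  have h1 := hs.C_eq (mul_mem hx hy) hnc hx hxc (hC ▸ inf_le_left)
  have h2 := hs.C_eq (mul_mem hx hy) hnc hy hyc (hC ▸ inf_le_right)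
  rw [← h1, h2]

theorem Setting.exists_r (hs : Setting N r) [hr : Fact r.Prime] {y : G} (hy : y ∈ N)
    (hyc : y ∉ center G) : ∃ w ∈ C y, PEl r w ∧ w ∉ center G := by
  obtain ⟨w, hw, hwc⟩ := hs.exr
  exact noncentral_transfer (hs.fact_eq hy hyc (hs.rmem w hw) hwc r) hw (self_mem_C w) hwc

theorem Setting.gd_eq (hs : Setting N r) [hr : Fact r.Prime] {y : G} (hy : Gd N r y) {u : G}
    (hu : u ∈ CN N y) (huc : u ∉ center G) : C u = C y := by
  obtain ⟨hyN, hyc, p, hp, hpr, hyp⟩ := hy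
  obtain ⟨q, w, hq, hwq, hwu, hwc⟩ := exists_pel_notMem (center G) huc
  have hw : w ∈ CN N y := (zpowers_le.mpr hu) hwu
  have hCw : C w = C y := by
    by_cases hqp : q = p
    · subst hqp
      obtain ⟨v, hv, hvr, hvc⟩ := hs.exists_r hyN hyc
      have hvy := hs.coprime hr.out hp (Ne.symm hpr) (hs.rmem v hvr) hvr hvc hyN hyp hyc hv
      rw [← hvy]
      refine hs.coprime hp hr.out hpr hw.2 hwq hwc (hs.rmem v hvr) hvr hvc ?_
      rw [hvy]
      exact hw.1
    · exact hs.coprime hq hp hqp hw.2 hwq hwc hyN hyp hyc hw.1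
  refine hs.C_eq hu.2 huc hyN hyc (hCw ▸ fun g hg => mem_C.mpr ?_)
  obtain ⟨i, rfl⟩ := mem_zpowers_iff.mp hwu
  exact ((show Commute g u from mem_C.mp hg).zpow_right i).eq

theorem Setting.gd_comm (hs : Setting N r) [hr : Fact r.Prime] {y : G} (hy : Gd N r y) {a b : G}
    (ha : a ∈ CN N y) (hb : b ∈ CN N y) : b ∈ C a := by
  by_cases hac : a ∈ center G
  · exact mem_C.mpr (mem_center_iff.mp hac b)
  · rw [hs.gd_eq hy ha hac]
    exact hb.1

/-- An element of `N` outside `C_N(y)` centralizes no noncentral element of it. -/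
theorem Setting.not_fix (hs : Setting N r) [hr : Fact r.Prime] {y : G} (hy : Gd N r y) {g a : G}
    (hg : g ∈ N) (hga : g ∉ CN N y) (ha : a ∈ CN N y) (hga' : g ∈ C a) : a ∈ center G := by
  by_contra hac
  exact hga ⟨(hs.gd_eq hy ha hac) ▸ hga', hg⟩

theorem Setting.not_le_C (hs : Setting N r) [hr : Fact r.Prime] {u : G} (hu : u ∈ N)
    (huc : u ∉ center G) : ¬ N ≤ C u := fun h => by
  obtain ⟨y, hy⟩ := hs.exgd
  have hNA : N ≤ CN N y := fun a ha =>
    ⟨(hs.gd_eq hy ⟨C_comm (h hy.1), hu⟩ huc) ▸ h ha, ha⟩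
  exact hs.nonab fun a ha b hb => mem_C.mp (hs.gd_comm hy (hNA hb) (hNA ha))

theorem Setting.not_all (hs : Setting N r) [hr : Fact r.Prime] {s : ℕ} [Fact s.Prime]
    {P : Subgroup G} (hP : SylowIn s N P) {u : G} (hu : u ∈ P) (huc : u ∉ center G) :
    ¬ ∀ x ∈ N, x ∉ center G → ∃ D, SylowIn s N D ∧ D ≤ C x := by
  intro h
  set H : Subgroup N := (centralizer (P : Set G)).subgroupOf N
  have hH : H = ⊤ := Subnormal.eq_top_of_forall_exists_conj_mem fun z => by
    by_cases hzc : (z : G) ∈ center G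
    · exact ⟨1, by simpa [H, mem_subgroupOf] using center_le_centralizer _ hzc⟩
    · obtain ⟨D, hD, hDz⟩ := h z z.2 hzc
      obtain ⟨c, hc, hcP⟩ := hD.exists_conj hP.isPGroup hP.le
      refine ⟨(⟨c, hc⟩ : N)⁻¹, ?_⟩
      rw [mem_subgroupOf, mem_centralizer_iff]
      intro b hb
      have h1 : c * b * c⁻¹ * z = z * (c * b * c⁻¹) := mem_C.mp (hDz (hcP b hb))
      simp only [Subgroup.coe_mul, Subgroup.coe_inv, inv_inv]
      calc b * (c⁻¹ * z * c) = c⁻¹ * (c * b * c⁻¹ * z) * c := by group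
        _ = c⁻¹ * (z * (c * b * c⁻¹)) * c := by rw [h1]
        _ = c⁻¹ * z * c * b := by group
  refine hs.not_le_C (hP.le hu) huc fun g hg => mem_C.mpr ?_
  have : (⟨g, hg⟩ : N) ∈ H := hH ▸ mem_top _
  exact ((mem_centralizer_iff.mp this) u hu).symm

theorem Setting.sylow_inf_N (hs : Setting N r) {s : ℕ} [Fact s.Prime] {Q : Subgroup G}
    (hQ : SylowIn s ⊤ Q) : SylowIn s N (Q ⊓ N) :=
  sylowIn_inf hQ (by rw [normalizer_eq_top_iff.mpr hs.normal]; exact le_top)

theorem Setting.fact_lt (hs : Setting N r) [hr : Fact r.Prime] {s : ℕ} [hsp : Fact s.Prime] {u : G}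
    (hu : PEl s u) (huN : u ∈ N) (huc : u ∉ center G) {x : G} (hx : x ∈ N) (hxc : x ∉ center G) :
    (Nat.card (C x)).factorization s < (Nat.card G).factorization s := by
  have hle : ∀ z : G, (Nat.card (C z)).factorization s ≤ (Nat.card G).factorization s := fun z =>
    (Nat.factorization_le_iff_dvd Nat.card_pos.ne' Nat.card_pos.ne').mpr (card_subgroup_dvd_card _) s
  refine lt_of_le_of_ne (hle x) fun heq => ?_
  obtain ⟨Q, hQ, -⟩ := exists_sylowIn_ge (p := s) (H := (⊤ : Subgroup G)) hu.isPGroup le_top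
  obtain ⟨P, hP, hPu⟩ := exists_sylowIn_ge (p := s) hu.isPGroup (zpowers_le.mpr huN)
  refine hs.not_all hP (hPu (mem_zpowers u)) huc fun z hz hzc => ?_
  obtain ⟨D, hD⟩ := exists_sylowIn (p := s) (C z)
  have hD' : SylowIn s ⊤ D :=
    ⟨le_top, hD.isPGroup, by rw [hD.card, hs.fact_eq hz hzc hx hxc, heq, card_top]⟩
  exact ⟨D ⊓ N, hs.sylow_inf_N hD', inf_le_left.trans hD.le⟩

theorem Setting.mem_syl (hs : Setting N r) [hr : Fact r.Prime] {y : G} (hy : Gd N r y) {s : ℕ}
    [Fact s.Prime] {D : Subgroup G} (hD : SylowIn s (CN N y) D) {x : G} (hx : x ∈ CN N y)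
    (hxs : PEl s x) : x ∈ D :=
  hD.mem_of_normalizes hxs hx (centralizer_le_normalizer _ (mem_centralizer_iff.mpr
    fun d hd => mem_C.mp (hs.gd_comm hy hx (hD.le hd))))

theorem Setting.mem_norm (hs : Setting N r) [hr : Fact r.Prime] {y : G} (hy : Gd N r y) {g w : G}
    (hw : w ∈ CN N y) (hwc : w ∉ center G) (hgw : g * w * g⁻¹ ∈ CN N y) :
    g ∈ normalizer (CN N y : Set G) := by
  refine mem_normalizer_fintype fun k hk => ⟨?_, hs.normal.conj_mem k hk.2 g⟩
  rw [← hs.gd_eq hy hgw (fun h => hwc (mem_center_conj.mp h))]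
  exact conj_mem_conj ((hs.gd_eq hy hw hwc).symm ▸ hk.1)

theorem Setting.norm_syl (hs : Setting N r) [hr : Fact r.Prime] {y : G} (hy : Gd N r y) {s : ℕ}
    [Fact s.Prime] {D : Subgroup G} (hD : SylowIn s (CN N y) D) {g : G}
    (hg : g ∈ normalizer (CN N y : Set G)) : g ∈ normalizer (D : Set G) :=
  mem_normalizer_fintype fun d hd => hs.mem_syl hy hD ((mem_normalizer_iff.mp hg d).mp (hD.le hd))
    ((PEl.of_mem hD.isPGroup hd).conj g)

theorem Setting.syl_r (hs : Setting N r) [hr : Fact r.Prime] {y : G} (hy : Gd N r y) {D : Subgroup G}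
    (hD : SylowIn r (CN N y) D) : SylowIn r (C y) D := by
  refine ⟨hD.le.trans inf_le_left, hD.isPGroup,
    le_antisymm (card_le_of_isPGroup hD.isPGroup (hD.le.trans inf_le_left)) ?_⟩
  obtain ⟨E, hE⟩ := exists_sylowIn (p := r) (C y)
  rw [← hE.card]
  exact card_le_of_le fun x hx => hs.mem_syl hy hD
    ⟨hE.le hx, hs.rmem x (PEl.of_mem hE.isPGroup hx)⟩ (PEl.of_mem hE.isPGroup hx)

theorem Setting.syl_noncentral (hs : Setting N r) [hr : Fact r.Prime] {y : G} (hy : Gd N r y)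
    {D : Subgroup G} (hD : SylowIn r (CN N y) D) : ∃ w ∈ D, w ∉ center G := by
  obtain ⟨w, hw, hwr, hwc⟩ := hs.exists_r hy.1 hy.2.1
  exact ⟨w, hs.mem_syl hy hD ⟨hw, hs.rmem w hwr⟩ hwr, hwc⟩

theorem Setting.sylowIn_N (hs : Setting N r) [hr : Fact r.Prime] {R : Subgroup G}
    (hR : SylowIn r ⊤ R) : SylowIn r N R := by
  have h := hs.sylow_inf_N hR
  rwa [inf_eq_left.mpr fun x hx => hs.rmem x (PEl.of_mem hR.isPGroup hx)] at h

theorem Setting.gd_conj (hs : Setting N r) {y : G} (hy : Gd N r y) (c : G) :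
    Gd N r (c * y * c⁻¹) := by
  obtain ⟨hyN, hyc, p, hp, hpr, hyp⟩ := hy
  exact ⟨hs.normal.conj_mem y hyN c, fun h => hyc (mem_center_conj.mp h), p, hp, hpr, hyp.conj c⟩

theorem Setting.CN_conj (hs : Setting N r) (y c : G) :
    CN N (c * y * c⁻¹) = (CN N y).map (MulAut.conj c).toMonoidHom := by
  ext x
  rw [mem_map_conj]
  constructor
  · rintro ⟨h1, h2⟩
    exact ⟨mem_C_conj.mp h1, by simpa [mul_assoc] using hs.normal.conj_mem x h2 c⁻¹⟩
  · rintro ⟨h1, h2⟩
    exact ⟨mem_C_conj.mpr h1, by simpa [mul_assoc] using hs.normal.conj_mem _ h2 c⟩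

/-! ### The Sylow `r`-subgroup of a centralizer has order `r` modulo the centre -/

/-- `R ∩ N_G(D)` normalises `C_N(y)` and contains `D` with index `r`. -/
theorem Setting.t_step (hs : Setting N r) [hr : Fact r.Prime] {y : G} (hy : Gd N r y)
    {D R : Subgroup G} (hD : SylowIn r (CN N y) D) (hR : SylowIn r ⊤ R) (hDR : D ≤ R) :
    D.relIndex (R ⊓ normalizer (D : Set G)) = r ∧
      R ⊓ normalizer (D : Set G) ≤ normalizer (CN N y : Set G) ∧
      ∃ n ∈ R ⊓ normalizer (D : Set G), n ∉ CN N y := by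
  obtain ⟨w, hwD, hwc⟩ := hs.syl_noncentral hy hD
  set T := R ⊓ normalizer (D : Set G)
  have hDT : D ≤ T := le_inf hDR le_normalizer
  have hTA : T ≤ normalizer (CN N y : Set G) := fun g hg =>
    hs.mem_norm hy (hD.le hwD) hwc (hD.le ((mem_normalizer_iff.mp hg.2 w).mp hwD))
  have hTr : ∀ x ∈ T, PEl r x := fun x hx => PEl.of_mem hR.isPGroup hx.1
  have hTN : ∀ x ∈ T, x ∈ N := fun x hx => hs.rmem x (hTr x hx)
  have hTD : ∀ x ∈ T, x ∈ CN N y → x ∈ D := fun x hx hxA => hs.mem_syl hy hD hxA (hTr x hx)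
  obtain ⟨u, hu, huc, hupow, hush⟩ := exists_shift (hR.isPGroup.to_le inf_le_left) hDT
    (inf_le_right) (fun h => hwc (h hwD))
  have hfix : ∀ x ∈ T, x ∈ C u → x ∈ D := fun x hx hxu =>
    hTD x hx ⟨(hs.gd_eq hy (hD.le hu) huc) ▸ hxu, hTN x hx⟩
  obtain ⟨hyN, hyc, p, hp, hpr, hyp⟩ := id hy
  haveI := Fact.mk hp
  obtain ⟨V, hV, hyV⟩ := exists_sylowIn_ge (p := p) (H := CN N y) hyp.isPGroup
    (zpowers_le.mpr ⟨self_mem_C y, hyN⟩)
  haveI : IsMulCommutative V := ⟨⟨fun a b => Subtype.ext (mem_C.mp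
    (hs.gd_comm hy (hV.le b.2) (hV.le a.2)))⟩⟩
  have hdvd : D.relIndex T ∣ r := by
    refine relIndex_dvd_of_semiregular (p := r) hDT (fun g hg => hs.norm_syl hy hV (hTA hg)) ?_
      (fun h => hyc (h (hyV (mem_zpowers y)))) ?_ ?_ ?_ ?_
    · rw [hV.card]
      exact fun h => hpr ((Nat.prime_dvd_prime_iff_eq hr.out hp).mp (hr.out.dvd_of_dvd_pow h)).symm
    · exact fun g hg hgD v hv hgv =>
        hs.not_fix hy (hTN g hg) (fun h => hgD (hTD g hg h)) (hV.le hv) hgv
    · exact fun g hg v hv => hs.gd_comm hy (hV.le hv) (hD.le hg)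
    · intro g hg
      refine hfix _ (pow_mem hg r) (shift_eq_one.mp ?_)
      rw [shift_pow (hush g hg)]
      exact shift_mem_of_pow (hush g hg) hupow
    · intro a ha b hb
      refine hfix _ (mul_mem (mul_mem (mul_mem ha hb) (inv_mem ha)) (inv_mem hb)) (shift_eq_one.mp ?_)
      have hab : shift a u * shift b u = shift b u * shift a u := mem_center_iff.mp (hush b hb) _
      rw [shift_mul (hush _ (inv_mem hb)), shift_mul (hush _ (inv_mem ha)), shift_mul (hush b hb)]
      have hinv : ∀ x ∈ T, shift x⁻¹ u = (shift x u)⁻¹ := fun x hx => by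
        refine eq_inv_of_mul_eq_one_left ?_
        rw [← shift_mul (hush x hx), inv_mul_cancel, shift_one]
      rw [hinv a ha, hinv b hb, hab]
      group
  have hne : D.relIndex T ≠ 1 := fun h => by
    have hTD' : T = D := le_antisymm (relIndex_eq_one.mp h) hDT
    have hRD : D ≠ R := fun e => by
      obtain ⟨v, hv, hvc⟩ := hs.exr
      have hlt := hs.fact_lt hv (hs.rmem v hv) hvc hyN hyc
      have h1 := (hs.syl_r hy hD).card
      rw [e, hR.card, card_top] at h1
      exact hlt.ne' (Nat.pow_right_injective hr.out.two_le h1)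
    obtain ⟨g, hgR, hgD, hgn⟩ := exists_normalizing hR.isPGroup hDR hRD
    exact hgD (hTD' ▸ (⟨hgR, mem_normalizer_fintype hgn⟩ : g ∈ T))
  refine ⟨((Nat.dvd_prime hr.out).mp hdvd).resolve_left hne, hTA, ?_⟩
  by_contra hcon
  push Not at hcon
  exact hne (relIndex_eq_one.mpr fun x hx => hTD x hx (hcon x hx))

end CfsgLib.ClassSizes3
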